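import Mathlib

set_option autoImplicit false

namespace Cfsg.Agent.Lib.Helper67

/-- `n` is a `π`-number: all its prime divisors lie in `π`. -/
def IsPiNum (π : Set ℕ) (n : ℕ) : Prop := ∀ p : ℕ, p.Prime → p ∣ n → p ∈ π

/-- `x` is a `π`-element: all prime divisors of its order lie in `π`. -/
def IsPiElt (π : Set ℕ) {G : Type*} [Monoid G] (x : G) : Prop :=
  ∀ p : ℕ, p.Prime → p ∣ orderOf x → p ∈ π

theorem isPiElt_iff (π : Set ℕ) {G : Type*} [Monoid G] (x : G) :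
    IsPiElt π x ↔ ∀ p : ℕ, p.Prime → p ∣ orderOf x → p ∈ π := Iff.rfl

theorem isPiNum_iff (π : Set ℕ) (n : ℕ) :
    IsPiNum π n ↔ ∀ p : ℕ, p.Prime → p ∣ n → p ∈ π := Iff.rfl

theorem isPiElt_iff_isPiNum (π : Set ℕ) {G : Type*} [Monoid G] (x : G) :
    IsPiElt π x ↔ IsPiNum π (orderOf x) := Iff.rfl

theorem isPiNum_one (π : Set ℕ) : IsPiNum π 1 := fun _ hp h =>
  absurd (Nat.dvd_one.mp h) hp.one_lt.ne'

theorem IsPiNum.mul {π : Set ℕ} {a b : ℕ} (ha : IsPiNum π a) (hb : IsPiNum π b) :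
    IsPiNum π (a * b) := fun p hp h => by
  rcases (Nat.Prime.dvd_mul hp).mp h with h | h
  · exact ha p hp h
  · exact hb p hp h

theorem IsPiNum.of_dvd {π : Set ℕ} {a b : ℕ} (hb : IsPiNum π b) (h : a ∣ b) : IsPiNum π a :=
  fun p hp hpa => hb p hp (hpa.trans h)

theorem IsPiNum.pow {π : Set ℕ} {a : ℕ} (ha : IsPiNum π a) (k : ℕ) : IsPiNum π (a ^ k) :=
  fun p hp h => ha p hp (hp.dvd_of_dvd_pow h)

theorem isPiNum_prime_pow {π : Set ℕ} {q : ℕ} (hqp : q.Prime) (hq : q ∈ π) (k : ℕ) :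
    IsPiNum π (q ^ k) := fun p hp h => by
  have h2 := hp.dvd_of_dvd_pow h
  rw [(Nat.prime_dvd_prime_iff_eq hp hqp).mp h2]
  exact hq

/-- a `π`-number and a `π'`-number are coprime -/
theorem IsPiNum.coprime {π : Set ℕ} {a b : ℕ} (ha : IsPiNum π a) (hb : IsPiNum πᶜ b) :
    Nat.Coprime a b :=
  Nat.coprime_of_dvd (fun k hk hka hkb => hb k hk hkb (ha k hk hka))

theorem isPiElt_one (π : Set ℕ) {G : Type*} [Monoid G] : IsPiElt π (1 : G) := by
  intro p hp h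
  rw [orderOf_one] at h
  exact absurd (Nat.dvd_one.mp h) hp.one_lt.ne'

theorem isPiElt_inv {π : Set ℕ} {G : Type*} [Group G] {x : G} (hx : IsPiElt π x) :
    IsPiElt π x⁻¹ := by
  intro p hp h
  rw [orderOf_inv] at h
  exact hx p hp h

theorem isPiElt_of_pow_eq_one {π : Set ℕ} {G : Type*} [Monoid G] {x : G} {n : ℕ}
    (hn : IsPiNum π n) (h : x ^ n = 1) : IsPiElt π x :=
  fun p hp hpx => hn p hp (hpx.trans (orderOf_dvd_of_pow_eq_one h))

theorem IsPiElt.pow {π : Set ℕ} {G : Type*} [Monoid G] {x : G} (hx : IsPiElt π x) (k : ℕ) :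
    IsPiElt π (x ^ k) :=
  fun p hp hpx => hx p hp (hpx.trans (orderOf_pow_dvd k))

theorem IsPiElt.map {π : Set ℕ} {G H : Type*} [Monoid G] [Monoid H] {x : G} (hx : IsPiElt π x)
    (f : G →* H) : IsPiElt π (f x) :=
  fun p hp hpx => hx p hp (hpx.trans (orderOf_map_dvd f x))

theorem isPiElt_conj {π : Set ℕ} {G : Type*} [Group G] {x : G} (hx : IsPiElt π x) (g : G) :
    IsPiElt π (g * x * g⁻¹) := by
  intro p hp h
  have e : orderOf (g * x * g⁻¹) = orderOf x := (MulAut.conj g).orderOf_eq x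
  rw [e] at h
  exact hx p hp h

theorem isPiElt_coe_iff {π : Set ℕ} {G : Type*} [Group G] {M : Subgroup G} (x : M) :
    IsPiElt π (x : G) ↔ IsPiElt π x := by
  rw [isPiElt_iff, isPiElt_iff, Subgroup.orderOf_coe]

/-- an element that is both a `π`-element and a `π'`-element is trivial -/
theorem eq_one_of_isPiElt_of_isPiNum_compl {π : Set ℕ} {G : Type*} [Monoid G] {x : G} {n : ℕ}
    (hx : IsPiElt π x) (hn : IsPiNum πᶜ n) (h : x ^ n = 1) : x = 1 := by
  have h1 : orderOf x ∣ n := orderOf_dvd_of_pow_eq_one h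
  have h2 : Nat.Coprime (orderOf x) n := IsPiNum.coprime hx hn
  have h3 : orderOf x = 1 := Nat.eq_one_of_dvd_coprimes h2 dvd_rfl h1
  exact orderOf_eq_one_iff.mp h3

end Cfsg.Agent.Lib.Helper67
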