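import Mathlib
import Cfsg.Agent.Lib.Helper67.PiNum

set_option autoImplicit false

namespace Cfsg.Agent.Lib.Helper67

theorem isPiNum_card_of_forall_isPiElt {π : Set ℕ} {G : Type*} [Group G] [Finite G]
    (h : ∀ x : G, IsPiElt π x) : IsPiNum π (Nat.card G) := by
  intro p hp hdvd
  have : Fact p.Prime := ⟨hp⟩
  obtain ⟨x, hx⟩ := exists_prime_orderOf_dvd_card' p hdvd
  exact h x p hp (by rw [hx])

theorem isPiElt_of_isPiNum_card {π : Set ℕ} {G : Type*} [Group G] [Finite G]
    (h : IsPiNum π (Nat.card G)) (x : G) : IsPiElt π x :=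
  fun p hp hpx => h p hp (hpx.trans (orderOf_dvd_natCard x))

theorem isSolvable_zpowers {G : Type*} [Group G] (g : G) :
    Group.IsSolvable (Subgroup.zpowers g) := by
  have hc : ∀ a b : Subgroup.zpowers g, a * b = b * a := fun a b => by
    obtain ⟨i, hi⟩ := Subgroup.mem_zpowers_iff.mp a.2
    obtain ⟨j, hj⟩ := Subgroup.mem_zpowers_iff.mp b.2
    apply Subtype.ext
    rw [Subgroup.coe_mul, Subgroup.coe_mul, ← hi, ← hj, ← zpow_add, ← zpow_add, add_comm]
  exact Group.isSolvable_of_comm hc

/-- If a prime `p` divides the index of a normal subgroup `N`, there is a `p`-element outside `N`. -/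
theorem exists_pElt_not_mem_of_prime_dvd_index {X : Type*} [Group X] [Finite X] (N : Subgroup X)
    [N.Normal] (p : ℕ) (hp : p.Prime) (h : p ∣ N.index) :
    ∃ g : X, g ∉ N ∧ ∃ a : ℕ, g ^ (p ^ a) = 1 := by
  have : Fact p.Prime := ⟨hp⟩
  rw [Subgroup.index_eq_card] at h
  obtain ⟨w, hw⟩ := exists_prime_orderOf_dvd_card' p h
  obtain ⟨g₀, rfl⟩ := QuotientGroup.mk_surjective w
  obtain ⟨a, m, hm, ham⟩ := Nat.exists_eq_pow_mul_and_not_dvd (orderOf_pos g₀).ne' p hp.one_lt.ne'
  refine ⟨g₀ ^ m, ?_, a, ?_⟩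
  · intro hmem
    apply hm
    rw [← hw]
    apply orderOf_dvd_of_pow_eq_one
    rw [← QuotientGroup.mk_pow]
    exact (QuotientGroup.eq_one_iff _).mpr hmem
  · rw [← pow_mul, mul_comm, ← ham, pow_orderOf_eq_one]

/-- If the center of a finite group has `π`-index, the product of two `π`-elements is a
`π`-element (transfer into the center). -/
theorem isPiElt_mul_of_center_index {π : Set ℕ} {A : Type*} [Group A] [Finite A]
    (hidx : IsPiNum π (Subgroup.center A).index) (x y : A) (hx : IsPiElt π x) (hy : IsPiElt π y) :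
    IsPiElt π (x * y) := by
  set n₀ := (Subgroup.center A).index with hn₀
  have hmul : (x * y) ^ n₀ = x ^ n₀ * y ^ n₀ := by
    have h1 : ((MonoidHom.transferCenterPow A (x * y) : Subgroup.center A) : A) =
        ((MonoidHom.transferCenterPow A x * MonoidHom.transferCenterPow A y :
          Subgroup.center A) : A) := by rw [map_mul]
    rw [Subgroup.coe_mul, MonoidHom.transferCenterPow_apply, MonoidHom.transferCenterPow_apply,
      MonoidHom.transferCenterPow_apply] at h1
    exact h1
  have hxc : x ^ n₀ ∈ Subgroup.center A := (Subgroup.center A).pow_index_mem x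
  have hcomm : Commute (x ^ n₀) (y ^ n₀) := by
    have := Subgroup.mem_center_iff.mp hxc (y ^ n₀)
    exact this.symm
  have hpow : (x * y) ^ (n₀ * (orderOf x * orderOf y)) = 1 := by
    rw [pow_mul, hmul, hcomm.mul_pow, ← pow_mul, ← pow_mul]
    have e1 : x ^ (n₀ * (orderOf x * orderOf y)) = 1 := by
      rw [show n₀ * (orderOf x * orderOf y) = orderOf x * (n₀ * orderOf y) by ring, pow_mul,
        pow_orderOf_eq_one, one_pow]
    have e2 : y ^ (n₀ * (orderOf x * orderOf y)) = 1 := by
      rw [show n₀ * (orderOf x * orderOf y) = orderOf y * (n₀ * orderOf x) by ring, pow_mul,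
        pow_orderOf_eq_one, one_pow]
    rw [e1, e2, one_mul]
  exact isPiElt_of_pow_eq_one (hidx.mul (IsPiNum.mul hx hy)) hpow

end Cfsg.Agent.Lib.Helper67
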