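import Mathlib
import Cfsg.Agent.Lib.Helper67.Basic
import Cfsg.Agent.Lib.Helper67.Lift
import Cfsg.Agent.Lib.Helper67.PiBasic
import Cfsg.Agent.Lib.Helper1.SZInternal
import Cfsg.Agent.S0023

set_option autoImplicit false

namespace Cfsg.Agent.Lib.Helper67

open Pointwise

universe u

/-- The "power" form of the hypothesis "`N_G(H)/C_G(H)` is a `π'`-group for every nontrivial
`π'`-subgroup `H`". -/
def PiHom (π : Set ℕ) (G : Type*) [Group G] : Prop :=
  ∀ H : Subgroup G, H ≠ ⊥ → IsPiNum πᶜ (Nat.card H) → ∀ g ∈ Subgroup.normalizer (H : Set G),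
    ∃ c : ℕ, IsPiNum πᶜ c ∧ g ^ c ∈ Subgroup.centralizer (H : Set G)

theorem piHom_iff (π : Set ℕ) (G : Type*) [Group G] :
    PiHom π G ↔ ∀ H : Subgroup G, H ≠ ⊥ → IsPiNum πᶜ (Nat.card H) →
      ∀ g ∈ Subgroup.normalizer (H : Set G),
        ∃ c : ℕ, IsPiNum πᶜ c ∧ g ^ c ∈ Subgroup.centralizer (H : Set G) := Iff.rfl

theorem mem_normalizer_of_conj_smul_eq {G : Type*} [Group G] (H : Subgroup G) (g : G)
    (h : MulAut.conj g • H = H) : g ∈ Subgroup.normalizer (H : Set G) := by
  rw [Subgroup.mem_normalizer_iff]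
  intro z
  nth_rewrite 2 [← h]
  rw [Cfsg.Agent.Lib.Helper1.mem_conj_smul]
  have e : g⁻¹ * (g * z * g⁻¹) * g = z := by group
  rw [e]

section core

variable {G : Type u} [Group G] [Finite G] (π : Set ℕ) (K L : Subgroup G) [K.Normal] [L.Normal]

omit [L.Normal] in
theorem isPiNum_card_of_forall_mem (hLpi : ∀ l ∈ L, IsPiElt π l) : IsPiNum π (Nat.card L) :=
  isPiNum_card_of_forall_isPiElt (fun l => (isPiElt_coe_iff l).mp (hLpi l l.2))

omit [K.Normal] in
theorem isPiNum_compl_card_map (hLmem : ∀ k ∈ K, IsPiElt π k → k ∈ L) :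
    IsPiNum πᶜ (Nat.card (K.map (QuotientGroup.mk' L))) := by
  intro p hp hdvd hpπ
  have h1 : L.relIndex K = Nat.card (K.map (QuotientGroup.mk' L)) := by
    rw [← Subgroup.relIndex_ker, QuotientGroup.ker_mk']
  rw [← h1, Subgroup.relIndex] at hdvd
  obtain ⟨g, hg, a, hga⟩ := exists_pElt_not_mem_of_prime_dvd_index (L.subgroupOf K) p hp hdvd
  apply hg
  rw [Subgroup.mem_subgroupOf]
  apply hLmem _ g.2
  apply isPiElt_of_pow_eq_one (isPiNum_prime_pow hp hpπ a)
  have := congrArg Subtype.val hga
  simpa using this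

/-- Under `PiHom`, every `π`-element centralizes `K/L`, where `L` is the set of `π`-elements of
the normal subgroup `K`. -/
theorem commute_mod_of_piHom (hpow : PiHom π G) (hLpi : ∀ l ∈ L, IsPiElt π l)
    (hLmem : ∀ k ∈ K, IsPiElt π k → k ∈ L) (x : G) (hx : IsPiElt π x) :
    ∀ k ∈ K, (QuotientGroup.mk' L) x * (QuotientGroup.mk' L) k =
      (QuotientGroup.mk' L) k * (QuotientGroup.mk' L) x := by
  set ρ := QuotientGroup.mk' L with hρ
  have hker : ρ.ker = L := QuotientGroup.ker_mk' L
  have hsurj : Function.Surjective ρ := QuotientGroup.mk'_surjective L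
  set xb := ρ x with hxb
  have hxbpi : IsPiElt π xb := hx.map ρ
  set A : Subgroup (G ⧸ L) := Subgroup.zpowers xb with hA
  set Kb : Subgroup (G ⧸ L) := K.map ρ with hKb
  have hKbn : Kb.Normal := Subgroup.Normal.map inferInstance ρ hsurj
  have hL2 : IsPiNum π (Nat.card L) := isPiNum_card_of_forall_mem π L hLpi
  have hL3 : IsPiNum πᶜ (Nat.card Kb) := isPiNum_compl_card_map π K L hLmem
  have hAK : A ≤ Subgroup.normalizer (Kb : Set (G ⧸ L)) := by
    rw [Subgroup.normalizer_eq_top]; exact le_top
  have hcop : (Nat.card A).Coprime (Nat.card Kb) := by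
    rw [hA, Nat.card_zpowers]
    exact IsPiNum.coprime hxbpi hL3
  have hsolvA : Group.IsSolvable A := isSolvable_zpowers xb
  -- the centralizer of `xb` in `Kb`
  set C' : Subgroup Kb := (Subgroup.centralizer {xb}).subgroupOf Kb with hC'
  have hC'top : C' = ⊤ := by
    rw [← Subgroup.index_eq_one, Nat.eq_one_iff_not_exists_prime_dvd]
    intro q hq hdvd
    have : Fact q.Prime := ⟨hq⟩
    obtain ⟨P, hP⟩ := Cfsg.Agent.S0023.result A Kb hAK hcop (Or.inl hsolvA) q
    have hPC : (P : Subgroup Kb) ≤ C' := by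
      set Qb : Subgroup (G ⧸ L) := (P : Subgroup Kb).map Kb.subtype with hQb
      have hQbK : Qb ≤ Kb := Subgroup.map_subtype_le _
      have hmain : xb ∈ Subgroup.centralizer (Qb : Set (G ⧸ L)) := by
        by_cases hQbot : Qb = ⊥
        · rw [hQbot, Subgroup.mem_centralizer_iff]
          intro h hh
          have : h = 1 := Subgroup.mem_bot.mp hh
          rw [this, one_mul, mul_one]
        · obtain ⟨j, hj⟩ := IsPGroup.iff_card.mp P.isPGroup'
          have hQbcard : Nat.card Qb = q ^ j := by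
            rw [hQb, Subgroup.card_map_of_injective (Subgroup.subtype_injective Kb), hj]
          have hj0 : j ≠ 0 := by
            intro h0
            apply hQbot
            rw [h0, pow_zero] at hQbcard
            exact Subgroup.card_eq_one.mp hQbcard
          have hqK : q ∣ Nat.card Kb :=
            (dvd_pow_self q hj0).trans (hQbcard ▸ Subgroup.card_dvd_of_le hQbK)
          have hqπ : q ∈ πᶜ := hL3 q hq hqK
          have hQbpi : IsPiNum πᶜ (Nat.card Qb) := by
            rw [hQbcard]; exact isPiNum_prime_pow hq hqπ j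
          have hcopLQ : (Nat.card L).Coprime (Nat.card Qb) := IsPiNum.coprime hL2 hQbpi
          obtain ⟨Q, hQmap, hQcard⟩ := exists_lift_subgroup L Qb hcopLQ
          have hQne : Q ≠ ⊥ := by
            intro h
            apply hQbot
            rw [← hQmap, h, Subgroup.map_bot]
          have hQpi : IsPiNum πᶜ (Nat.card Q) := by rw [hQcard]; exact hQbpi
          have hxbn : xb ∈ Subgroup.normalizer (Qb : Set (G ⧸ L)) :=
            hP (Subgroup.mem_zpowers xb)
          set A₁ : Subgroup G := MulAut.conj x • Q with hA₁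
          have hA₁le : A₁ ≤ L ⊔ Q := by
            intro z hz
            rw [hA₁, Cfsg.Agent.Lib.Helper1.mem_conj_smul] at hz
            have h1 : ρ (x⁻¹ * z * x) ∈ Qb := by
              rw [← hQmap]; exact Subgroup.mem_map_of_mem _ hz
            have h2 : xb * ρ (x⁻¹ * z * x) * xb⁻¹ ∈ Qb :=
              (Subgroup.mem_normalizer_iff.mp hxbn _).mp h1
            have h3 : xb * ρ (x⁻¹ * z * x) * xb⁻¹ = ρ z := by
              rw [hxb, ← map_inv, ← map_mul, ← map_mul]
              congr 1
              group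
            rw [h3, ← hQmap] at h2
            obtain ⟨w, hw, hwz⟩ := Subgroup.mem_map.mp h2
            have h4 : z * w⁻¹ ∈ L := by
              rw [← hker, MonoidHom.mem_ker, map_mul, map_inv, hwz, mul_inv_cancel]
            have h5 : z = (z * w⁻¹) * w := by group
            rw [h5]
            exact Subgroup.mul_mem _ (Subgroup.mem_sup_left h4) (Subgroup.mem_sup_right hw)
          have hcard : Nat.card A₁ = Nat.card Q := Cfsg.Agent.Lib.Helper1.card_conj_smul Q x
          have hQn : Q ≤ Subgroup.normalizer (L : Set G) := by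
            rw [Subgroup.normalizer_eq_top]; exact le_top
          have hQp : IsPGroup q Q := IsPGroup.of_card (n := j) (by rw [hQcard, hQbcard])
          have hQsolv : Group.IsSolvable Q := by
            have : Group.IsNilpotent Q := hQp.isNilpotent
            infer_instance
          have hcopQL : (Nat.card Q).Coprime (Nat.card L) := by
            rw [hQcard]; exact hcopLQ.symm
          obtain ⟨n, hnL, hn⟩ := Cfsg.Agent.Lib.Helper1.sz_conj_internal L Q A₁ hQn hcopQL
            (Or.inl hQsolv) hA₁le hcard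
          have hy : n * x ∈ Subgroup.normalizer (Q : Set G) := by
            apply mem_normalizer_of_conj_smul_eq
            rw [map_mul, mul_smul]
            exact hn
          obtain ⟨c, hc, hyc⟩ := hpow Q hQne hQpi (n * x) hy
          have hρn : ρ n = 1 := (QuotientGroup.eq_one_iff n).mpr hnL
          have hρy : ρ (n * x) = xb := by
            rw [map_mul, hρn, one_mul]
          have h1 : xb ^ c ∈ Subgroup.centralizer (Qb : Set (G ⧸ L)) := by
            rw [Subgroup.mem_centralizer_iff]
            intro u hu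
            rw [← hQmap] at hu
            obtain ⟨w, hw, rfl⟩ := Subgroup.mem_map.mp hu
            have h2 := Subgroup.mem_centralizer_iff.mp hyc w hw
            have h3 := congrArg ρ h2
            rw [map_mul, map_mul, map_pow, hρy] at h3
            exact h3
          have h2 : xb ^ orderOf xb ∈ Subgroup.centralizer (Qb : Set (G ⧸ L)) := by
            rw [pow_orderOf_eq_one]; exact Subgroup.one_mem _
          have hcop' : Nat.Coprime c (orderOf xb) := (IsPiNum.coprime hxbpi hc).symm
          exact mem_of_pow_mem_of_coprime _ xb c (orderOf xb) hcop' h1 h2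
      intro v hv
      rw [hC', Subgroup.mem_subgroupOf, Subgroup.mem_centralizer_singleton_iff]
      have hvQ : (v : G ⧸ L) ∈ Qb := Subgroup.mem_map.mpr ⟨v, hv, rfl⟩
      exact Subgroup.mem_centralizer_iff.mp hmain _ hvQ
    have h1 : C'.index ∣ (P : Subgroup Kb).index := Subgroup.index_dvd_of_le hPC
    exact P.not_dvd_index (hdvd.trans h1)
  intro k hk
  have hkb : ρ k ∈ Kb := Subgroup.mem_map_of_mem _ hk
  have h1 : (⟨ρ k, hkb⟩ : Kb) ∈ C' := by rw [hC'top]; exact Subgroup.mem_top _
  rw [hC', Subgroup.mem_subgroupOf, Subgroup.mem_centralizer_singleton_iff] at h1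
  exact h1.symm

/-- Extension step: if the `π`-elements of the normal subgroup `K` and of `G ⧸ K` are closed
under multiplication and `G` satisfies `PiHom`, then the `π`-elements of `G` are closed under
multiplication. -/
theorem isPiElt_mul_of_normal (hpow : PiHom π G)
    (hK : ∀ x ∈ K, ∀ y ∈ K, IsPiElt π x → IsPiElt π y → IsPiElt π (x * y))
    (hQ : ∀ x y : G ⧸ K, IsPiElt π x → IsPiElt π y → IsPiElt π (x * y)) :
    ∀ x y : G, IsPiElt π x → IsPiElt π y → IsPiElt π (x * y) := by
  let L : Subgroup G :=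
    { carrier := {k | k ∈ K ∧ IsPiElt π k}
      mul_mem' := fun {a b} ha hb => ⟨K.mul_mem ha.1 hb.1, hK a ha.1 b hb.1 ha.2 hb.2⟩
      one_mem' := ⟨K.one_mem, isPiElt_one π⟩
      inv_mem' := fun {a} ha => ⟨K.inv_mem ha.1, isPiElt_inv ha.2⟩ }
  have hLn : L.Normal :=
    ⟨fun l hl g => ⟨(inferInstance : K.Normal).conj_mem l hl.1 g, isPiElt_conj hl.2 g⟩⟩
  have hLK : L ≤ K := fun l hl => hl.1
  have hLpi : ∀ l ∈ L, IsPiElt π l := fun l hl => hl.2
  have hLmem : ∀ k ∈ K, IsPiElt π k → k ∈ L := fun k hk hkπ => ⟨hk, hkπ⟩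
  intro x y hx hy
  set ρ := QuotientGroup.mk' L with hρ
  have hcx := commute_mod_of_piHom π K L hpow hLpi hLmem x hx
  have hcy := commute_mod_of_piHom π K L hpow hLpi hLmem y hy
  set τ : G ⧸ L →* G ⧸ K := QuotientGroup.map L K (MonoidHom.id G) hLK with hτ
  have hτρ : ∀ g : G, τ (ρ g) = QuotientGroup.mk' K g := fun g => rfl
  set A : Subgroup (G ⧸ L) := Subgroup.closure {ρ x, ρ y} with hA
  set Kb : Subgroup (G ⧸ L) := K.map ρ with hKb
  have hxA : ρ x ∈ A := Subgroup.subset_closure (Set.mem_insert _ _)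
  have hyA : ρ y ∈ A := Subgroup.subset_closure (Set.mem_insert_of_mem _ rfl)
  have hAc : A ≤ Subgroup.centralizer (Kb : Set (G ⧸ L)) := by
    rw [hA, Subgroup.closure_le]
    intro a ha
    rw [SetLike.mem_coe, Subgroup.mem_centralizer_iff]
    intro u hu
    obtain ⟨k, hk, rfl⟩ := Subgroup.mem_map.mp hu
    rcases ha with rfl | rfl
    · exact (hcx k hk).symm
    · exact (hcy k hk).symm
  have hAτ : ∀ a ∈ A, IsPiElt π (τ a) := by
    intro a ha
    induction ha using Subgroup.closure_induction with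
    | mem a ha =>
      rcases ha with rfl | rfl
      · rw [hτρ]; exact hx.map _
      · rw [hτρ]; exact hy.map _
    | one => rw [map_one]; exact isPiElt_one π
    | mul a b _ _ iha ihb => rw [map_mul]; exact hQ _ _ iha ihb
    | inv a _ iha => rw [map_inv]; exact isPiElt_inv iha
  have hidx : IsPiNum π (Subgroup.center A).index := by
    intro p hp hdvd
    by_contra hpπ
    obtain ⟨a, ha, e, hae⟩ :=
      exists_pElt_not_mem_of_prime_dvd_index (Subgroup.center A) p hp hdvd
    apply ha
    have hae' : (a : G ⧸ L) ^ (p ^ e) = 1 := by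
      have := congrArg Subtype.val hae
      simpa using this
    have h1 : τ (a : G ⧸ L) = 1 :=
      eq_one_of_isPiElt_of_isPiNum_compl (hAτ a a.2) (isPiNum_prime_pow hp hpπ e)
        (by rw [← map_pow, hae', map_one])
    obtain ⟨g, hg⟩ := QuotientGroup.mk'_surjective L (a : G ⧸ L)
    have hgK : g ∈ K := by
      rw [← hg] at h1
      exact (QuotientGroup.eq_one_iff g).mp h1
    have haKb : (a : G ⧸ L) ∈ Kb := by
      rw [← hg]; exact Subgroup.mem_map_of_mem _ hgK
    rw [Subgroup.mem_center_iff]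
    intro b
    apply Subtype.ext
    have := Subgroup.mem_centralizer_iff.mp (hAc b.2) _ haKb
    rw [Subgroup.coe_mul, Subgroup.coe_mul]
    exact this.symm
  have hxy := isPiElt_mul_of_center_index hidx (⟨ρ x, hxA⟩ : A) ⟨ρ y, hyA⟩
    ((isPiElt_coe_iff (⟨ρ x, hxA⟩ : A)).mp (hx.map ρ))
    ((isPiElt_coe_iff (⟨ρ y, hyA⟩ : A)).mp (hy.map ρ))
  have hxy' : IsPiElt π (ρ (x * y)) := by
    rw [map_mul]
    exact (isPiElt_coe_iff ((⟨ρ x, hxA⟩ : A) * ⟨ρ y, hyA⟩)).mpr hxy
  have h1 : (x * y) ^ orderOf (ρ (x * y)) ∈ L := by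
    have h0 : ρ ((x * y) ^ orderOf (ρ (x * y))) = 1 := by
      rw [map_pow]
      exact pow_orderOf_eq_one _
    exact (QuotientGroup.eq_one_iff _).mp h0
  have h2 : IsPiElt π ((x * y) ^ orderOf (ρ (x * y))) := hLpi _ h1
  exact isPiElt_of_pow_eq_one (n := orderOf (ρ (x * y)) * orderOf ((x * y) ^ orderOf (ρ (x * y))))
    (IsPiNum.mul hxy' h2) (by rw [pow_mul, pow_orderOf_eq_one])

end core

/-- The index form of the hypothesis implies the power form. -/
theorem piHom_of_relIndex {G : Type*} [Group G] [Finite G] (π : Set ℕ)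
    (h : ∀ H : Subgroup G, H ≠ ⊥ → (∀ p : ℕ, p.Prime → p ∣ Nat.card ↥H → p ∉ π) →
        ∀ p : ℕ, p.Prime → p ∣ (Subgroup.centralizer (H : Set G)).relIndex
          (Subgroup.normalizer (H : Set G)) → p ∉ π) : PiHom π G := by
  intro H hH hHpi g hg
  refine ⟨(Subgroup.centralizer (H : Set G)).relIndex (Subgroup.normalizer (H : Set G)),
    h H hH hHpi, ?_⟩
  have hn : ((Subgroup.centralizer (H : Set G)).subgroupOf (Subgroup.normalizer (H : Set G))).Normal :=
    Subgroup.normal_subgroupOf_centralizer_normalizer _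
  have h1 := Subgroup.pow_index_mem
    ((Subgroup.centralizer (H : Set G)).subgroupOf (Subgroup.normalizer (H : Set G)))
    (⟨g, hg⟩ : Subgroup.normalizer (H : Set G))
  rw [Subgroup.mem_subgroupOf] at h1
  exact h1

/-- The `π`-elements form a subgroup iff they are closed under multiplication. -/
theorem exists_subgroup_iff_mul {G : Type*} [Group G] (π : Set ℕ) :
    (∃ K : Subgroup G, ∀ x : G, x ∈ K ↔ ∀ p : ℕ, p.Prime → p ∣ orderOf x → p ∈ π) ↔
      (∀ x y : G, IsPiElt π x → IsPiElt π y → IsPiElt π (x * y)) := by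
  constructor
  · rintro ⟨K, hK⟩ x y hx hy
    exact (hK _).mp (K.mul_mem ((hK x).mpr hx) ((hK y).mpr hy))
  · intro h
    exact ⟨{ carrier := {k | IsPiElt π k}
             mul_mem' := fun {a b} ha hb => h a b ha hb
             one_mem' := isPiElt_one π
             inv_mem' := fun {a} ha => isPiElt_inv ha }, fun x => Iff.rfl⟩

end Cfsg.Agent.Lib.Helper67
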